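import Mathlib
import Cfsg.Prelude.Def_HallClasses
import Cfsg.Agent.Lib.SylowNormalInf

/-!
# Pronormality of the subgroups which contain a Sylow subgroup, in group extensions

`cj g H = g H g⁻¹`; `Prn X H`: for `g ∈ X`, `H` and `g H g⁻¹` are conjugate in the subgroup they generate.
-/

set_option autoImplicit false

namespace Cfsg.Agent.H555.Pronormal

open Subgroup

section basic

variable {G : Type*} [Group G]

/-- `g H g⁻¹` -/
abbrev cj (g : G) (H : Subgroup G) : Subgroup G := H.map (MulAut.conj g).toMonoidHom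

theorem mem_cj {g x : G} {H : Subgroup G} : x ∈ cj g H ↔ g⁻¹ * x * g ∈ H := by
  constructor
  · rintro ⟨y, hy, rfl⟩
    change g⁻¹ * (g * y * g⁻¹) * g ∈ H
    have e : g⁻¹ * (g * y * g⁻¹) * g = y := by group
    rw [e]
    exact hy
  · intro h
    refine ⟨_, h, ?_⟩
    change g * (g⁻¹ * x * g) * g⁻¹ = x
    group

theorem cj_mul (g h : G) (H : Subgroup G) : cj (g * h) H = cj g (cj h H) := by
  ext x
  rw [mem_cj, mem_cj, mem_cj]
  have e : (g * h)⁻¹ * x * (g * h) = h⁻¹ * (g⁻¹ * x * g) * h := by group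
  rw [e]

theorem cj_one (H : Subgroup G) : cj (1 : G) H = H := by
  ext x
  rw [mem_cj]
  simp

theorem cj_mono (g : G) {H K : Subgroup G} (h : H ≤ K) : cj g H ≤ cj g K := Subgroup.map_mono h

theorem cj_sup (g : G) (H K : Subgroup G) : cj g (H ⊔ K) = cj g H ⊔ cj g K := Subgroup.map_sup _ _ _

theorem cj_inf (g : G) (H K : Subgroup G) : cj g (H ⊓ K) = cj g H ⊓ cj g K := by
  ext x
  rw [mem_cj, mem_inf, mem_inf, mem_cj, mem_cj]

theorem cj_inv_cj (g : G) (H : Subgroup G) : cj g⁻¹ (cj g H) = H := by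
  rw [← cj_mul, inv_mul_cancel, cj_one]

theorem cj_cj_inv (g : G) (H : Subgroup G) : cj g (cj g⁻¹ H) = H := by
  rw [← cj_mul, mul_inv_cancel, cj_one]

theorem cj_eq_iff_mem {g : G} {H : Subgroup G} : cj g H = H ↔ g ∈ normalizer (H : Set G) := by
  rw [Subgroup.mem_normalizer_iff]
  constructor
  · intro h x
    constructor
    · intro hx
      rw [← h, mem_cj]
      have e : g⁻¹ * (g * x * g⁻¹) * g = x := by group
      rw [e]
      exact hx
    · intro hx
      rw [← h, mem_cj] at hx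
      have e : g⁻¹ * (g * x * g⁻¹) * g = x := by group
      rwa [e] at hx
  · intro h
    ext x
    rw [mem_cj]
    have h1 := h (g⁻¹ * x * g)
    have e : g * (g⁻¹ * x * g) * g⁻¹ = x := by group
    rw [e] at h1
    exact h1

theorem cj_of_mem {g : G} {H : Subgroup G} (h : g ∈ H) : cj g H = H :=
  cj_eq_iff_mem.2 (Subgroup.le_normalizer h)

theorem cj_normal (g : G) (N : Subgroup G) [N.Normal] : cj g N = N :=
  cj_eq_iff_mem.2 (by rw [Subgroup.normalizer_eq_top]; trivial)

/-- `H` and `g H g⁻¹` are conjugate in the subgroup they generate, for all `g ∈ X`. -/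
def Prn (X H : Subgroup G) : Prop :=
  ∀ g ∈ X, ∃ x ∈ H ⊔ cj g H, cj g H = cj x H

theorem isPronormal_iff {H : Subgroup G} : Cfsg.IsPronormal H ↔ Prn ⊤ H :=
  ⟨fun h g _ => h g, fun h g => h g trivial⟩

theorem Prn.mono {X Y H : Subgroup G} (h : Prn Y H) (hXY : X ≤ Y) : Prn X H :=
  fun g hg => h g (hXY hg)

/-- pronormality may be checked after a conjugation -/
theorem isPronormal_of_cj {H : Subgroup G} (u : G) (h : Cfsg.IsPronormal (cj u H)) : Cfsg.IsPronormal H := by
  intro g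
  obtain ⟨x, hx, hx2⟩ := h (u * g * u⁻¹)
  have e1 : cj (u * g * u⁻¹) (cj u H) = cj u (cj g H) := by
    rw [← cj_mul, ← cj_mul]
    congr 1
    group
  change x ∈ cj u H ⊔ cj (u * g * u⁻¹) (cj u H) at hx
  change cj (u * g * u⁻¹) (cj u H) = cj x (cj u H) at hx2
  rw [e1, ← cj_sup, mem_cj] at hx
  refine ⟨u⁻¹ * x * u, hx, ?_⟩
  change cj g H = cj (u⁻¹ * x * u) H
  rw [e1] at hx2
  rw [cj_mul, cj_mul, ← hx2, cj_inv_cj]

/-- Restriction to a subgroup: `K ≤ X` is pronormal in `X` as a subgroup of the type `X`. -/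
theorem isPronormal_subgroupOf_iff {X K : Subgroup G} (hK : K ≤ X) :
    Cfsg.IsPronormal (K.subgroupOf X) ↔ Prn X K := by
  have key : ∀ g : X, ((K.subgroupOf X).map (MulAut.conj g).toMonoidHom).map X.subtype = cj (g : G) K := by
    intro g
    rw [Subgroup.map_map]
    have e : X.subtype.comp (MulAut.conj g).toMonoidHom = (MulAut.conj (g : G)).toMonoidHom.comp X.subtype := by
      ext y
      rfl
    rw [e, ← Subgroup.map_map, Subgroup.subgroupOf_map_subtype, inf_eq_left.2 hK]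
  have key2 : ∀ (g : X) (x : X), x ∈ K.subgroupOf X ⊔ (K.subgroupOf X).map (MulAut.conj g).toMonoidHom ↔
      (x : G) ∈ K ⊔ cj (g : G) K := by
    intro g x
    have e : (K.subgroupOf X ⊔ (K.subgroupOf X).map (MulAut.conj g).toMonoidHom).map X.subtype =
        K ⊔ cj (g : G) K := by
      rw [Subgroup.map_sup, key, Subgroup.subgroupOf_map_subtype, inf_eq_left.2 hK]
    rw [← e, Subgroup.mem_map]
    constructor
    · intro h
      exact ⟨x, h, rfl⟩
    · rintro ⟨y, hy, h⟩
      rwa [← Subtype.ext h]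
  constructor
  · intro h g hg
    obtain ⟨x, hx, hx2⟩ := h ⟨g, hg⟩
    refine ⟨x, (key2 ⟨g, hg⟩ x).1 hx, ?_⟩
    have := congrArg (Subgroup.map X.subtype) hx2
    rw [key, key] at this
    exact this
  · intro h g
    obtain ⟨x, hx, hx2⟩ := h g g.2
    have hxX : x ∈ X := by
      have : K ⊔ cj (g : G) K ≤ X := by
        refine sup_le hK ?_
        calc cj (g : G) K ≤ cj (g : G) X := cj_mono _ hK
          _ = X := cj_of_mem g.2
      exact this hx
    refine ⟨⟨x, hxX⟩, (key2 g ⟨x, hxX⟩).2 hx, ?_⟩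
    apply Subgroup.map_injective X.subtype_injective
    rw [key, key]
    exact hx2

/-- Passing to a quotient. -/
theorem map_cj {Q : Type*} [Group Q] (f : G →* Q) (g : G) (H : Subgroup G) :
    (cj g H).map f = cj (f g) (H.map f) := by
  change (H.map _).map f = (H.map f).map _
  rw [Subgroup.map_map, Subgroup.map_map]
  congr 1
  ext y
  simp

theorem isPronormal_map {Q : Type*} [Group Q] {f : G →* Q} (hf : Function.Surjective f) {H : Subgroup G}
    (h : Cfsg.IsPronormal H) : Cfsg.IsPronormal (H.map f) := by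
  intro g
  obtain ⟨g, rfl⟩ := hf g
  obtain ⟨x, hx, hx2⟩ := h g
  refine ⟨f x, ?_, ?_⟩
  · change f x ∈ H.map f ⊔ cj (f g) (H.map f)
    rw [← map_cj, ← Subgroup.map_sup]
    exact Subgroup.mem_map_of_mem f hx
  · change cj (f g) (H.map f) = cj (f x) (H.map f)
    rw [← map_cj, ← map_cj]
    exact congrArg (Subgroup.map f) hx2

theorem isPronormal_of_map {Q : Type*} [Group Q] {f : G →* Q} {H : Subgroup G} (hker : f.ker ≤ H)
    (h : Cfsg.IsPronormal (H.map f)) : Cfsg.IsPronormal H := by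
  have hk : ∀ g : G, f.ker ≤ cj g H := by
    intro g
    rw [← cj_normal g f.ker]
    exact cj_mono g hker
  intro g
  obtain ⟨x, hx, hx2⟩ := h (f g)
  change x ∈ H.map f ⊔ cj (f g) (H.map f) at hx
  change cj (f g) (H.map f) = cj x (H.map f) at hx2
  rw [← map_cj, ← Subgroup.map_sup] at hx
  obtain ⟨y, hy, rfl⟩ := hx
  refine ⟨y, hy, ?_⟩
  change cj g H = cj y H
  rw [← map_cj, ← map_cj] at hx2
  have h3 := congrArg (Subgroup.comap f) hx2
  rwa [Subgroup.comap_map_eq, Subgroup.comap_map_eq, sup_eq_left.2 (hk g), sup_eq_left.2 (hk y)] at h3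

end basic

section sylow

variable {G : Type*} [Group G] [Finite G] {p : ℕ} [Fact p.Prime]

/-- `H` contains a Sylow `p`-subgroup -/
def Over (p : ℕ) (H : Subgroup G) : Prop := ∃ P : Sylow p G, (P : Subgroup G) ≤ H

omit [Finite G] [Fact p.Prime] in
theorem Over.cj' {H : Subgroup G} (h : Over p H) (g : G) : Over p (cj g H) := by
  obtain ⟨P, hP⟩ := h
  refine ⟨g • P, ?_⟩
  rw [Sylow.coe_subgroup_smul]
  exact cj_mono g hP

omit [Finite G] [Fact p.Prime] in
/-- The Sylow subgroups of `X ≤ G` when `X` contains a Sylow subgroup of `G`. -/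
theorem over_subgroupOf {H X : Subgroup G} (h : Over p H) (hHX : H ≤ X) : Over p (H.subgroupOf X) := by
  obtain ⟨P, hP⟩ := h
  refine ⟨P.subtype (hP.trans hHX), ?_⟩
  rw [Sylow.coe_subtype]
  intro x hx
  exact hP hx

theorem over_of_subgroupOf {H X : Subgroup G} (hX : Over p X) (h : Over p (H.subgroupOf X)) : Over p H := by
  obtain ⟨P, hP⟩ := hX
  obtain ⟨Q, hQ⟩ := h
  obtain ⟨x, hx⟩ := MulAction.exists_smul_eq X (P.subtype hP) Q
  refine ⟨(x : G) • P, ?_⟩
  intro y hy
  rw [Sylow.coe_subgroup_smul] at hy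
  change y ∈ cj (x : G) (P : Subgroup G) at hy
  rw [mem_cj] at hy
  have hyX : y ∈ X := by
    have h1 := hP hy
    have h2 := X.mul_mem (X.mul_mem x.2 h1) (X.inv_mem x.2)
    have e : (x : G) * ((x : G)⁻¹ * y * (x : G)) * (x : G)⁻¹ = y := by group
    rwa [e] at h2
  have h3 : (⟨y, hyX⟩ : X) ∈ (Q : Subgroup X) := by
    rw [← hx, Sylow.coe_subgroup_smul]
    change (⟨y, hyX⟩ : X) ∈ cj x (P.subtype hP : Subgroup X)
    rw [mem_cj, Sylow.coe_subtype, Subgroup.mem_subgroupOf]
    exact hy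
  exact hQ h3

theorem over_map {Q : Type*} [Group Q] [Finite Q] {f : G →* Q} (hf : Function.Surjective f) {H : Subgroup G}
    (h : Over p H) : Over p (H.map f) := by
  obtain ⟨P, hP⟩ := h
  refine ⟨P.mapSurjective hf, ?_⟩
  rw [Sylow.coe_mapSurjective]
  exact Subgroup.map_mono hP

theorem over_comap {Q : Type*} [Group Q] [Finite Q] {f : G →* Q} (hf : Function.Surjective f) {H : Subgroup Q}
    (h : Over p H) : Over p (H.comap f) := by
  obtain ⟨P, hP⟩ := h
  obtain ⟨S⟩ : Nonempty (Sylow p G) := inferInstance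
  obtain ⟨y, hy⟩ := MulAction.exists_smul_eq Q (S.mapSurjective hf) P
  obtain ⟨g, rfl⟩ := hf y
  refine ⟨g • S, ?_⟩
  rw [← Subgroup.map_le_iff_le_comap, Sylow.coe_subgroup_smul]
  refine le_trans (le_of_eq ?_) hP
  rw [← hy, Sylow.coe_subgroup_smul, Sylow.coe_mapSurjective]
  exact map_cj f g S

/-- **The local criterion**: the subgroup `H` over the Sylow subgroup `S` with `T = S ∩ A`. -/
theorem isPronormal_of (A : Subgroup G) [A.Normal]
    (hA : ∀ K : Subgroup ↥A, Over p K → Cfsg.IsPronormal K)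
    (T : Subgroup G)
    (hN : ∀ K : Subgroup G, T ≤ K → K ≤ normalizer (T : Set G) → Over p K → Prn (normalizer (T : Set G)) K)
    (H : Subgroup G) (S : Sylow p G) (hS : (S : Subgroup G) ≤ H) (hT : (S : Subgroup G) ⊓ A = T)
    (hq : Cfsg.IsPronormal (H.map (QuotientGroup.mk' A)))
    (hn : (normalizer (H : Set G)).map (QuotientGroup.mk' A) =
      normalizer ((H.map (QuotientGroup.mk' A) : Subgroup (G ⧸ A)) : Set (G ⧸ A))) :
    Cfsg.IsPronormal H := by
  intro g
  change ∃ x ∈ H ⊔ cj g H, cj g H = cj x H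
  -- Step 0
  obtain ⟨x', hx', hx2⟩ := hq (QuotientGroup.mk' A g)
  change x' ∈ H.map (QuotientGroup.mk' A) ⊔ cj (QuotientGroup.mk' A g) (H.map (QuotientGroup.mk' A)) at hx'
  change cj (QuotientGroup.mk' A g) (H.map (QuotientGroup.mk' A)) = cj x' (H.map (QuotientGroup.mk' A)) at hx2
  rw [← map_cj, ← Subgroup.map_sup] at hx'
  obtain ⟨x, hx, rfl⟩ := hx'
  have h0 : (QuotientGroup.mk' A (x⁻¹ * g)) ∈
      normalizer ((H.map (QuotientGroup.mk' A) : Subgroup (G ⧸ A)) : Set (G ⧸ A)) := by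
    rw [← cj_eq_iff_mem, map_mul, cj_mul, hx2, map_inv, cj_inv_cj]
  rw [← hn] at h0
  obtain ⟨n, hn1, hn2⟩ := h0
  -- `x⁻¹ * g = a * n`
  obtain ⟨a, ha, hag⟩ : ∃ a ∈ A, x⁻¹ * g = a * n := by
    refine ⟨x⁻¹ * g * n⁻¹, ?_, by group⟩
    have h1 : QuotientGroup.mk' A (x⁻¹ * g * n⁻¹) = 1 := by
      rw [map_mul, ← hn2, map_inv, mul_inv_cancel]
    rwa [← MonoidHom.mem_ker, QuotientGroup.ker_mk'] at h1
  have hgH : cj g H = cj x (cj a H) := by
    have e : g = x * (a * n) := by rw [← hag]; group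
    rw [e, cj_mul, cj_mul, cj_eq_iff_mem.2 hn1]
  have haH : cj a H = cj x⁻¹ (cj g H) := by rw [hgH, cj_inv_cj]
  have hle1 : H ⊔ cj a H ≤ H ⊔ cj g H := by
    refine sup_le le_sup_left ?_
    rw [haH]
    calc cj x⁻¹ (cj g H) ≤ cj x⁻¹ (H ⊔ cj g H) := cj_mono _ le_sup_right
      _ = H ⊔ cj g H := cj_of_mem (inv_mem hx)
  suffices h1 : ∃ y ∈ H ⊔ cj a H, cj a H = cj y H by
    obtain ⟨y, hy, hy2⟩ := h1
    exact ⟨x * y, mul_mem hx (hle1 hy), by rw [hgH, hy2, cj_mul]⟩
  -- Step 1
  set B : Subgroup G := H ⊓ A with hB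
  have hBA : B ≤ A := inf_le_right
  have hTB : T ≤ B := by rw [← hT]; exact inf_le_inf_right A hS
  have hAS := (Cfsg.Agent.Lib.SylowNormalInf.isPGroup_subgroupOf S A).toSylow
    (Cfsg.Agent.Lib.SylowNormalInf.not_dvd_relIndex S A)
  have hBo : Over p (B.subgroupOf A) := by
    refine ⟨(Cfsg.Agent.Lib.SylowNormalInf.isPGroup_subgroupOf S A).toSylow
      (Cfsg.Agent.Lib.SylowNormalInf.not_dvd_relIndex S A), ?_⟩
    intro y hy
    exact ⟨hS hy, y.2⟩
  have hBp : Prn A B := (isPronormal_subgroupOf_iff hBA).1 (hA _ hBo)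
  obtain ⟨b, hb, hb2⟩ := hBp a ha
  have hBH : B ≤ H := inf_le_left
  have hle2 : B ⊔ cj a B ≤ H ⊔ cj a H := sup_le_sup hBH (cj_mono a hBH)
  set c : G := b⁻¹ * a with hc
  have hcB : cj c B = B := by rw [hc, cj_mul, hb2, cj_inv_cj]
  have hcH : cj c H = cj b⁻¹ (cj a H) := by rw [hc, cj_mul]
  have hcA : c ∈ A := by
    refine A.mul_mem (A.inv_mem ?_) ha
    have : B ⊔ cj a B ≤ A := sup_le hBA ((cj_mono a hBA).trans (le_of_eq (cj_of_mem ha)))
    exact this hb
  have hle3 : H ⊔ cj c H ≤ H ⊔ cj a H := by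
    refine sup_le le_sup_left ?_
    rw [hcH]
    calc cj b⁻¹ (cj a H) ≤ cj b⁻¹ (H ⊔ cj a H) := cj_mono _ le_sup_right
      _ = H ⊔ cj a H := cj_of_mem (inv_mem (hle2 hb))
  suffices h1 : ∃ y ∈ H ⊔ cj c H, cj c H = cj y H by
    obtain ⟨y, hy, hy2⟩ := h1
    refine ⟨b * y, mul_mem (hle2 hb) (hle3 hy), ?_⟩
    rw [cj_mul, ← hy2, hcH, cj_cj_inv]
  -- Step 2
  have hTsyl : ∃ Q : Sylow p ↥B, (Q : Subgroup ↥B) = T.subgroupOf B := by
    have h1 : IsPGroup p (T.subgroupOf B) := by
      rw [← hT]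
      have h3 : IsPGroup p ((S : Subgroup G) ⊓ A : Subgroup G) := S.isPGroup'.to_le inf_le_left
      exact h3.comap_of_injective B.subtype B.subtype_injective
    have h2 : ¬ p ∣ (T.subgroupOf B).index := by
      intro h
      have h4 : T.relIndex A = (S : Subgroup G).relIndex A := by
        rw [← hT, Subgroup.inf_relIndex_right]
      apply Cfsg.Agent.Lib.SylowNormalInf.not_dvd_relIndex S A
      rw [← h4, ← Subgroup.relIndex_mul_relIndex T B A hTB hBA]
      exact Dvd.dvd.mul_right h _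
    exact ⟨h1.toSylow h2, rfl⟩
  obtain ⟨Q, hQ⟩ := hTsyl
  have hcT : cj c T ≤ B := by
    rw [← hcB]
    exact cj_mono c hTB
  have hcTsyl : ∃ R : Sylow p ↥B, (R : Subgroup ↥B) = (cj c T).subgroupOf B := by
    have h1 : IsPGroup p ((cj c T).subgroupOf B) := by
      have h3 : IsPGroup p (T : Subgroup G) := by rw [← hT]; exact S.isPGroup'.to_le inf_le_left
      have h4 : IsPGroup p (cj c T) := h3.map _
      exact h4.comap_of_injective B.subtype B.subtype_injective
    have hcard : Nat.card ((cj c T).subgroupOf B) = Nat.card (T.subgroupOf B) := by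
      rw [Nat.card_congr (Subgroup.subgroupOfEquivOfLe hcT).toEquiv,
        Nat.card_congr (Subgroup.subgroupOfEquivOfLe hTB).toEquiv]
      exact (Nat.card_congr (T.equivMapOfInjective _ (MulAut.conj c).injective).toEquiv).symm
    have h2 : ¬ p ∣ ((cj c T).subgroupOf B).index := by
      have h5 := Q.not_dvd_index
      rw [hQ] at h5
      have h6 := ((cj c T).subgroupOf B).card_mul_index
      have h7 := (T.subgroupOf B).card_mul_index
      rw [hcard, ← h7] at h6
      rw [Nat.eq_of_mul_eq_mul_left Nat.card_pos h6]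
      exact h5
    exact ⟨h1.toSylow h2, rfl⟩
  obtain ⟨R, hR⟩ := hcTsyl
  obtain ⟨d, hd⟩ := MulAction.exists_smul_eq ↥B R Q
  have hdT : cj (d : G) (cj c T) = T := by
    have h1 := congrArg (fun Z : Sylow p ↥B => ((Z : Subgroup ↥B)).map B.subtype) hd
    simp only [Sylow.coe_subgroup_smul] at h1
    rw [hQ, hR] at h1
    change (cj d ((cj c T).subgroupOf B)).map B.subtype = (T.subgroupOf B).map B.subtype at h1
    rw [map_cj, Subgroup.subgroupOf_map_subtype, Subgroup.subgroupOf_map_subtype, inf_eq_left.2 hcT,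
      inf_eq_left.2 hTB] at h1
    exact h1
  set e : G := (d : G) * c with he
  have heT : e ∈ normalizer (T : Set G) := by rw [← cj_eq_iff_mem, he, cj_mul, hdT]
  have heB : cj e B = B := by rw [he, cj_mul, hcB, cj_of_mem d.2]
  have hdc : (d : G) ∈ cj c H := by
    have : B ≤ cj c H := by rw [← hcB]; exact cj_mono c hBH
    exact this d.2
  have heH : cj e H = cj c H := by rw [he, cj_mul, cj_of_mem hdc]
  rw [← heH]
  -- Step 3
  set L : Subgroup G := H ⊓ normalizer (T : Set G) with hL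
  have hTn : T ≤ normalizer (T : Set G) := Subgroup.le_normalizer
  have hSn : (S : Subgroup G) ≤ normalizer (T : Set G) := by
    intro s hs
    rw [← cj_eq_iff_mem, ← hT, cj_inf, cj_normal s A, cj_of_mem hs]
  have hLp := hN L (le_inf (hTB.trans hBH) hTn) inf_le_right ⟨S, le_inf hS hSn⟩
  obtain ⟨y, hy, hy2⟩ := hLp e heT
  have hLH : L ≤ H := inf_le_left
  have hHB : H ≤ normalizer (B : Set G) := by
    intro h hh
    rw [← cj_eq_iff_mem, hB, cj_inf, cj_normal h A, cj_of_mem hh]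
  have hyB : cj y B = B := by
    have h1 : L ⊔ cj e L ≤ normalizer (B : Set G) := by
      refine sup_le (hLH.trans hHB) ?_
      calc cj e L ≤ cj e (normalizer (B : Set G)) := cj_mono e (hLH.trans hHB)
        _ = normalizer (B : Set G) := cj_of_mem (cj_eq_iff_mem.1 heB)
    exact cj_eq_iff_mem.2 (h1 hy)
  -- Frattini
  have hfr : B ⊔ L = H := by
    apply le_antisymm (sup_le hBH hLH)
    intro h hh
    -- `cj h T ≤ B` is Sylow in `B`
    have hhT : cj h T ≤ B := by
      calc cj h T ≤ cj h B := cj_mono h hTB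
        _ = B := cj_eq_iff_mem.2 (hHB hh)
    have hRsyl : ∃ R' : Sylow p ↥B, (R' : Subgroup ↥B) = (cj h T).subgroupOf B := by
      have h1 : IsPGroup p ((cj h T).subgroupOf B) := by
        have h3 : IsPGroup p (T : Subgroup G) := by rw [← hT]; exact S.isPGroup'.to_le inf_le_left
        have h4 : IsPGroup p (cj h T) := h3.map _
        exact h4.comap_of_injective B.subtype B.subtype_injective
      have hcard : Nat.card ((cj h T).subgroupOf B) = Nat.card (T.subgroupOf B) := by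
        rw [Nat.card_congr (Subgroup.subgroupOfEquivOfLe hhT).toEquiv,
          Nat.card_congr (Subgroup.subgroupOfEquivOfLe hTB).toEquiv]
        exact (Nat.card_congr (T.equivMapOfInjective _ (MulAut.conj h).injective).toEquiv).symm
      have h2 : ¬ p ∣ ((cj h T).subgroupOf B).index := by
        have h5 := Q.not_dvd_index
        rw [hQ] at h5
        have h6 := ((cj h T).subgroupOf B).card_mul_index
        have h7 := (T.subgroupOf B).card_mul_index
        rw [hcard, ← h7] at h6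
        rw [Nat.eq_of_mul_eq_mul_left Nat.card_pos h6]
        exact h5
      exact ⟨h1.toSylow h2, rfl⟩
    obtain ⟨R', hR'⟩ := hRsyl
    obtain ⟨d', hd'⟩ := MulAction.exists_smul_eq ↥B R' Q
    have hdT' : cj (d' : G) (cj h T) = T := by
      have h1 := congrArg (fun Z : Sylow p ↥B => ((Z : Subgroup ↥B)).map B.subtype) hd'
      simp only [Sylow.coe_subgroup_smul] at h1
      rw [hQ, hR'] at h1
      change (cj d' ((cj h T).subgroupOf B)).map B.subtype = (T.subgroupOf B).map B.subtype at h1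
      rw [map_cj, Subgroup.subgroupOf_map_subtype, Subgroup.subgroupOf_map_subtype, inf_eq_left.2 hhT,
        inf_eq_left.2 hTB] at h1
      exact h1
    have hl : (d' : G) * h ∈ L := by
      refine Subgroup.mem_inf.2 ⟨H.mul_mem (hBH d'.2) hh, ?_⟩
      rw [← cj_eq_iff_mem, cj_mul, hdT']
    have e1 : h = (d' : G)⁻¹ * ((d' : G) * h) := by group
    rw [e1]
    exact mul_mem (inv_mem (Subgroup.mem_sup_left d'.2)) (Subgroup.mem_sup_right hl)
  refine ⟨y, sup_le_sup hLH (cj_mono e hLH) hy, ?_⟩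
  have h1 : cj e H = cj e B ⊔ cj e L := by rw [← cj_sup, hfr]
  have h2 : cj y H = cj y B ⊔ cj y L := by rw [← cj_sup, hfr]
  rw [h1, h2, heB, hyB, hy2]

/-- Pronormality gives the condition on normalizers in the quotient. -/
theorem map_normalizer_of_isPronormal (A : Subgroup G) [A.Normal] {H : Subgroup G} (h : Cfsg.IsPronormal H) :
    (normalizer (H : Set G)).map (QuotientGroup.mk' A) =
      normalizer ((H.map (QuotientGroup.mk' A) : Subgroup (G ⧸ A)) : Set (G ⧸ A)) := by
  apply le_antisymm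
  · rintro _ ⟨n, hn, rfl⟩
    rw [← cj_eq_iff_mem, ← map_cj, cj_eq_iff_mem.2 hn]
  · intro y hy
    obtain ⟨g, rfl⟩ := QuotientGroup.mk'_surjective A y
    rw [← cj_eq_iff_mem, ← map_cj] at hy
    obtain ⟨x, hx, hx2⟩ := h g
    change x ∈ H ⊔ cj g H at hx
    change cj g H = cj x H at hx2
    -- `x ∈ H A`
    have h1 : QuotientGroup.mk' A x ∈ H.map (QuotientGroup.mk' A) := by
      have h2 := Subgroup.mem_map_of_mem (QuotientGroup.mk' A) hx
      rw [Subgroup.map_sup, hy, sup_idem] at h2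
      exact h2
    obtain ⟨k, hk, hk2⟩ := h1
    -- `x⁻¹ g ∈ N(H)`
    have h3 : x⁻¹ * g ∈ normalizer (H : Set G) := by
      rw [← cj_eq_iff_mem, cj_mul, hx2, cj_inv_cj]
    refine ⟨k * (x⁻¹ * g), mul_mem (Subgroup.le_normalizer hk) h3, ?_⟩
    rw [map_mul, hk2, ← map_mul]
    congr 1
    group

end sylow

end Cfsg.Agent.H555.Pronormal
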