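/- helper555: S2956 -/
import Cfsg.Agent.H555.SylChainTwo

set_option autoImplicit false

namespace Cfsg.Agent.H555.SylChain

open Subgroup Cfsg Relation

variable {G : Type*} [Group G]

section
set_option linter.unusedSectionVars false
variable [Finite G] {p : ℕ} [hp : Fact p.Prime]

/-- the `p`-part of the order of `M` -/
noncomputable def pp (p : ℕ) (M : Subgroup G) : ℕ := p ^ (Nat.card M).factorization p

theorem pp_le (M : Subgroup G) : pp p M ≤ Nat.card G := by
  have h1 : pp p M ∣ Nat.card M := Nat.ordProj_dvd _ _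
  exact (Nat.le_of_dvd Nat.card_pos h1).trans (Nat.le_of_dvd Nat.card_pos (Subgroup.card_subgroup_dvd_card M))

/-- every `p`-local subgroup lies in a maximal one -/
theorem exists_maximal {N : Subgroup G} (hN : IsPLocal p N) : ∃ M, IsMaximalPLocal p M ∧ N ≤ M := by
  have hfin : (Set.univ : Set (Subgroup G)).Finite := Set.toFinite _
  obtain ⟨M, hNM, hM⟩ := Finite.exists_le_maximal (p := fun X : Subgroup G => IsPLocal p X) hN
  refine ⟨M, ⟨hM.1, fun X hX hle => ?_⟩, hNM⟩
  exact le_antisymm (hM.2 hX hle) hle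

/-- the normalizer condition for a proper subgroup of a `p`-group -/
theorem lt_inf_normalizer {D S : Subgroup G} (hS : IsPGroup p S) (h : D < S) :
    D < S ⊓ Subgroup.normalizer (D : Set G) := by
  have : Group.IsNilpotent S := hS.isNilpotent
  have h1 : D.subgroupOf S < ⊤ := by
    rw [lt_top_iff_ne_top]
    intro h2
    rw [Subgroup.subgroupOf_eq_top] at h2
    exact absurd h2 (not_le_of_gt h)
  have h2 := (Group.normalizerCondition_of_isNilpotent (G := S)) _ h1
  refine lt_of_le_of_ne (le_inf h.le Subgroup.le_normalizer) ?_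
  intro heq
  apply absurd h2
  intro h3
  obtain ⟨x, hx, hxD⟩ := SetLike.exists_of_lt h3
  apply hxD
  have hx2 : (x : G) ∈ S ⊓ Subgroup.normalizer (D : Set G) := by
    refine ⟨x.2, ?_⟩
    rw [Subgroup.mem_normalizer_iff] at hx
    change (x : G) ∈ Subgroup.normalizer (D : Set G)
    rw [Subgroup.mem_normalizer_iff]
    intro d
    have hDS : D ≤ S := h.le
    constructor
    · intro hd
      have := (hx ⟨d, hDS hd⟩).mp hd
      exact this
    · intro hd
      have hdS : d ∈ S := by
        have h5 := hDS hd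
        have : d = (x : G)⁻¹ * (x * d * (x : G)⁻¹) * x := by group
        rw [this]
        exact S.mul_mem (S.mul_mem (S.inv_mem x.2) h5) x.2
      exact (hx ⟨d, hdS⟩).mpr hd
  rw [← heq] at hx2
  exact hx2

section main
variable {f : Subgroup G → Set (Subgroup G)} (hf : IsNormalizerFunctor p f)
  (hf1 : ∀ P : Subgroup G, IsPGroup p ↥P → P ≠ ⊥ → ∀ F ∈ f P, F ≠ ⊥)
  {𝓖 : Set (Subgroup G)} (h𝓖1 : functorFamily p f ⊤ ⊆ 𝓖)
  (h𝓖2 : ∀ M, IsMaximalPLocal p M → ¬ IsFunctorRegular p f M → M ∈ 𝓖)
include hf hf1 h𝓖1 h𝓖2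

/-- the inner induction -/
theorem inner {D : Subgroup G} (hD : D ≠ ⊥)
    (ih : ∀ D', D < D' → ∀ S T, IsSyl p ⊤ S → IsSyl p ⊤ T → D' ≤ S ⊓ T →
      ReflTransGen (Link p 𝓖 D) S T) :
    ∀ (n : ℕ) (M : Subgroup G), Nat.card G - pp p M ≤ n → IsMaximalPLocal p M →
      (∀ P, IsSyl p M P → D ≤ P → D < P) →
      ∀ P Q P' Q', IsSyl p M P → IsSyl p M Q → IsSyl p ⊤ P' → IsSyl p ⊤ Q' → P ≤ P' → Q ≤ Q' →
        D ≤ P → D ≤ Q → ReflTransGen (Link p 𝓖 D) P' Q' := by
  intro n
  induction n using Nat.strong_induction_on with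
  | _ n ihn =>
  intro M hn hM hDM P Q P' Q' hP hQ hP' hQ' hPP' hQQ' hDP hDQ
  by_cases hreg : IsFunctorRegular p f M
  · rw [regular_iff hf] at hreg
    have hcard : Nat.card D < pp p M := by
      have h1 := hDM P hP hDP
      have h2 : Nat.card D < Nat.card P := by
        by_contra hcon
        push Not at hcon
        exact absurd (Subgroup.eq_of_le_of_card_ge hDP hcon) h1.ne
      rwa [hP.card] at h2
    have hltS : ∀ R, IsSyl p M R → D ≤ R → D < R := hDM
    have hrtg : ReflTransGen (LinkM p f M D) P Q := by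
      by_cases hPQ : P = Q
      · rw [hPQ]
      · have hne : P ⊓ Q ≠ ⊥ := by
          intro h
          apply hD
          rw [eq_bot_iff, ← h]
          exact le_inf hDP hDQ
        exact rtgM_mono (hreg P Q hP hQ hPQ hne) (le_inf hDP hDQ)
    -- induct on the chain
    clear hQ hDQ
    revert Q'
    induction hrtg with
    | refl =>
      intro Q' hQ' hQQ'
      exact ih P (hDM P hP hDP) P' Q' hP' hQ' (le_inf hPP' hQQ')
    | @tail Q₁ Q hch hlink ihc =>
      intro Q' hQ' hQQ'
      obtain ⟨h1, h2, R, F, h3, h4, h5, h6, ⟨x, hx1, hx2, hx3⟩, h8⟩ := hlink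
      have hRne : R ≠ ⊥ := by
        intro hbot
        have e1 : Nat.card R = pp p M := h3.card
        rw [hbot, Subgroup.card_bot] at e1
        have := Nat.card_pos (α := D)
        omega
      have hFne : F ≠ ⊥ := hf1 R h3.isPGroup hRne F h4
      have hFR : F ≤ R := ((hf R h3.isPGroup).1 F h4).1
      by_cases hQtop : IsSyl p ⊤ Q
      · -- everything is Sylow in `G`
        have htop : ∀ X, IsSyl p M X → IsSyl p ⊤ X := by
          intro X hX
          apply isSyl_of_card le_top
          rw [hX.card_eq h2, hQtop.card]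
        have hQ'eq : Q' = Q := (hQtop.eq_of_le hQ'.isPGroup le_top hQQ').symm
        have hc1 := ihc Q₁ (htop _ h1) le_rfl
        refine hc1.tail ?_
        rw [hQ'eq]
        obtain ⟨R', hR'⟩ := isSyl_top_iff.mp (htop _ h3)
        obtain ⟨R'', hR''⟩ := htop _ h3
        refine ⟨htop _ h1, hQtop, ⊤ ⊓ Subgroup.normalizer (F : Set G), h𝓖1 ⟨R'', F, ?_, rfl⟩, ?_, ?_,
          ⟨x, ⟨Subgroup.mem_top _, hx2⟩, hx3⟩, ?_⟩
        · rw [hR'']; exact h4
        · have : Q₁ ⊓ (⊤ ⊓ Subgroup.normalizer (F : Set G)) = Q₁ :=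
            inf_eq_left.mpr (le_inf le_top h5)
          rw [this]
          exact (htop _ h1).of_le (le_inf le_top h5) le_top
        · have : Q ⊓ (⊤ ⊓ Subgroup.normalizer (F : Set G)) = Q :=
            inf_eq_left.mpr (le_inf le_top h6)
          rw [this]
          exact hQtop.of_le (le_inf le_top h6) le_top
        · refine le_inf h8 (le_inf le_top ?_)
          exact (h8.trans inf_le_left).trans h5
      · -- go up to a larger local subgroup
        have hNF : IsPLocal p (Subgroup.normalizer (F : Set G)) :=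
          ⟨F, h3.isPGroup.to_le hFR, hFne, rfl⟩
        obtain ⟨M₁, hM₁, hNM₁⟩ := exists_maximal hNF
        have hlt : pp p M < pp p M₁ := by
          obtain ⟨R', hR', hRR'⟩ := exists_sylow_ge (p := p) h3.isPGroup
          have hRlt : R < R' := by
            refine lt_of_le_of_ne hRR' ?_
            rintro rfl
            apply hQtop
            apply isSyl_of_card le_top
            rw [h2.card_eq h3, hR'.card]
          have h10 := lt_inf_normalizer hR'.isPGroup hRlt
          have h11 : Nat.card R < Nat.card (R' ⊓ Subgroup.normalizer (R : Set G) : Subgroup G) := by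
            by_contra hcon
            push Not at hcon
            exact absurd (Subgroup.eq_of_le_of_card_ge h10.le hcon) h10.ne
          have h12 : Nat.card (R' ⊓ Subgroup.normalizer (R : Set G) : Subgroup G) ≤ pp p M₁ := by
            apply card_le_of_isPGroup (hR'.isPGroup.to_le inf_le_left)
            exact inf_le_right.trans ((normalizer_le_of_mem hf h3.isPGroup h4).trans hNM₁)
          have h13 : Nat.card R = pp p M := h3.card
          omega
        have hsub : Nat.card G - pp p M₁ < n := by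
          have := pp_le (p := p) M₁
          omega
        obtain ⟨A, hA, hQA⟩ := exists_isSyl (p := p) h2.isPGroup (h6.trans hNM₁)
        obtain ⟨A', hA', hAA'⟩ := exists_sylow_ge (p := p) hA.isPGroup
        obtain ⟨B, hB, hQB⟩ := exists_isSyl (p := p) h1.isPGroup (h5.trans hNM₁)
        obtain ⟨B', hB', hBB'⟩ := exists_sylow_ge (p := p) hB.isPGroup
        have hDQ₁ : D ≤ Q₁ := h8.trans inf_le_left
        have hDQ : D ≤ Q := h8.trans inf_le_right
        have c1 : ReflTransGen (Link p 𝓖 D) P' B' := ihc B' hB' (hQB.trans hBB')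
        have c2 : ReflTransGen (Link p 𝓖 D) B' A' := by
          refine ihn (Nat.card G - pp p M₁) hsub M₁ le_rfl hM₁ ?_ B A B' A' hB hA hB' hA' hBB' hAA'
            (hDQ₁.trans hQB) (hDQ.trans hQA)
          intro X hX hDX
          refine lt_of_le_of_ne hDX ?_
          rintro rfl
          have e2 : Nat.card D = pp p M₁ := hX.card
          omega
        have c3 : ReflTransGen (Link p 𝓖 D) A' Q' :=
          ih Q (hDM Q h2 hDQ) A' Q' hA' hQ' (le_inf (hQA.trans hAA') hQQ')
        exact (c1.trans c2).trans c3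
  · -- singular
    obtain ⟨m, hm, hmQ⟩ := hP.conj hQ
    set Q'' := subgroupConjRight m Q' with hQ''
    have hQ''s : IsSyl p ⊤ Q'' := by have := hQ'.cj m; rwa [cj_top] at this
    have hPQ'' : P ≤ Q'' := by rw [← hmQ]; exact cj_mono hQQ'
    have c1 : ReflTransGen (Link p 𝓖 D) P' Q'' :=
      ih P (hDM P hP hDP) P' Q'' hP' hQ''s (le_inf hPP' hPQ'')
    refine c1.tail ⟨hQ''s, hQ', M, h𝓖2 M hM hreg, ?_, ?_, ⟨m, hm, rfl⟩, ?_⟩
    · rw [hP.inf_eq hQ''s hPQ'']; exact hP
    · rw [hQ.inf_eq hQ' hQQ']; exact hQ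
    · exact le_inf (le_inf (hDP.trans hPQ'') (hDQ.trans hQQ')) (hDP.trans hP.le)

theorem outer : ∀ (n : ℕ) (D : Subgroup G), Nat.card G - Nat.card D ≤ n → D ≠ ⊥ →
    ∀ S T, IsSyl p ⊤ S → IsSyl p ⊤ T → D ≤ S ⊓ T → ReflTransGen (Link p 𝓖 D) S T := by
  intro n
  induction n using Nat.strong_induction_on with
  | _ n ihn =>
  intro D hn hD S T hS hT hDST
  have hcardle : ∀ X : Subgroup G, Nat.card X ≤ Nat.card G := fun X =>
    Nat.le_of_dvd Nat.card_pos (Subgroup.card_subgroup_dvd_card X)
  have hlt : ∀ D₁ D' : Subgroup G, D₁ < D' → Nat.card D₁ < Nat.card D' := by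
    intro D₁ D' h
    by_contra hcon
    push Not at hcon
    exact absurd (Subgroup.eq_of_le_of_card_ge h.le hcon) h.ne
  have ih : ∀ D', D < D' → ∀ S T, IsSyl p ⊤ S → IsSyl p ⊤ T → D' ≤ S ⊓ T →
      ReflTransGen (Link p 𝓖 D) S T := by
    intro D' hDD' S T hS hT hle
    have h1 := hlt D D' hDD'
    have h2 := hcardle D'
    exact rtg_mono (ihn (Nat.card G - Nat.card D') (by omega) D' le_rfl
      (fun h => by rw [h] at hDD'; exact not_lt_bot hDD') S T hS hT hle) hDD'.le
  by_cases hDS : D = S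
  · -- then S = T
    have h1 : S ≤ T := by
      rw [← hDS]; exact hDST.trans inf_le_right
    have h2 : S = T := hS.eq_of_le hT.isPGroup le_top h1
    rw [h2]
  have hDS' : D < S := lt_of_le_of_ne (hDST.trans inf_le_left) hDS
  have hDT' : D < T := by
    refine lt_of_le_of_ne (hDST.trans inf_le_right) ?_
    intro h
    have h1 : T ≤ S := by rw [← h]; exact hDST.trans inf_le_left
    have h2 : T = S := hT.eq_of_le hS.isPGroup le_top h1
    rw [h2] at h
    exact hDS h
  have hDp : IsPGroup p D := hS.isPGroup.to_le hDS'.le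
  obtain ⟨M, hM, hNM⟩ := exists_maximal (p := p) ⟨D, hDp, hD, rfl⟩
  have l1 := lt_inf_normalizer hS.isPGroup hDS'
  have l2 := lt_inf_normalizer hT.isPGroup hDT'
  obtain ⟨P, hP, hPle⟩ := exists_isSyl (p := p) (M := M) (hS.isPGroup.to_le inf_le_left)
    ((inf_le_right : S ⊓ Subgroup.normalizer (D : Set G) ≤ _).trans hNM)
  obtain ⟨Q, hQ, hQle⟩ := exists_isSyl (p := p) (M := M) (hT.isPGroup.to_le inf_le_left)
    ((inf_le_right : T ⊓ Subgroup.normalizer (D : Set G) ≤ _).trans hNM)
  obtain ⟨P', hP', hPP'⟩ := exists_sylow_ge (p := p) hP.isPGroup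
  obtain ⟨Q', hQ', hQQ'⟩ := exists_sylow_ge (p := p) hQ.isPGroup
  have hDP : D < P := lt_of_lt_of_le l1 hPle
  have hDQ : D < Q := lt_of_lt_of_le l2 hQle
  have c1 : ReflTransGen (Link p 𝓖 D) S P' :=
    ih _ l1 S P' hS hP' (le_inf inf_le_left (hPle.trans hPP'))
  have c3 : ReflTransGen (Link p 𝓖 D) Q' T :=
    ih _ l2 Q' T hQ' hT (le_inf (hQle.trans hQQ') inf_le_left)
  have c2 : ReflTransGen (Link p 𝓖 D) P' Q' := by
    refine inner hf hf1 h𝓖1 h𝓖2 hD ih _ M le_rfl hM ?_ P Q P' Q' hP hQ hP' hQ' hPP' hQQ' hDP.le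
      hDQ.le
    intro X hX hDX
    refine lt_of_le_of_ne hDX ?_
    intro h
    have h1 := hlt _ _ hDP
    rw [h, hX.card_eq hP] at h1
    exact lt_irrefl _ h1
  exact (c1.trans c2).trans c3

theorem controls_main : ControlsSylowIntersections p 𝓖 := by
  rw [controls_iff]
  intro S T hS hT _ hD
  exact outer hf hf1 h𝓖1 h𝓖2 _ (S ⊓ T) le_rfl hD S T hS hT le_rfl

end main

end

end Cfsg.Agent.H555.SylChain
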